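import Cfsg.Agent.Glauberman.Over
import Cfsg.Agent.Chars.Induced.Extension
import Cfsg.Agent.Chars.Apps.PPrimeDegree
import Cfsg.Agent.Coprime.Sylow
import Cfsg.Agent.CoprimeHall.Basic
import Cfsg.Agent.Signalizer.Hyperplane
import Cfsg.Agent.IsoBlocks.Basic
import Cfsg.Agent.S4885

/-!
# Invariant characters of degree prime to q

A `p`-group `A` acts on the `p'`-group `H`, which is `q`-solvable.  If every `A`-invariant
irreducible character of `H` has degree prime to `q`, then `C_H(A)` normalises every `A`-invariant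
Sylow `q`-subgroup of `H`.
-/

set_option autoImplicit false

namespace CfsgLib.PQDegrees

open Cfsg MulAction
open scoped CfsgLib.Glauberman

universe u

variable {Y : Type u} [Group Y] [Finite Y]

/-- `Q` is a Sylow `q`-subgroup of `R`. -/
structure IsSylowIn (q : ℕ) (Q R : Subgroup Y) : Prop where
  le : Q ≤ R
  isPGroup : IsPGroup q Q
  not_dvd : ¬ q ∣ Q.relIndex R

omit [Finite Y] in
theorem IsSylowIn.exists_sylow {q : ℕ} [Fact q.Prime] {Q R : Subgroup Y} (h : IsSylowIn q Q R) :
    ∃ P : Sylow q R, (P : Subgroup R).map R.subtype = Q := by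
  refine ⟨(h.isPGroup.comap_of_injective R.subtype R.subtype_injective).toSylow h.not_dvd, ?_⟩
  show (Q.subgroupOf R).map R.subtype = Q
  rw [Subgroup.subgroupOf_map_subtype, inf_eq_left.2 h.le]

theorem isSylowIn_map {q : ℕ} [Fact q.Prime] {R : Subgroup Y} (P : Sylow q R) :
    IsSylowIn q ((P : Subgroup R).map R.subtype) R := by
  refine ⟨Subgroup.map_subtype_le _, P.2.map _, ?_⟩
  rw [Subgroup.relIndex, Subgroup.subgroupOf,
    Subgroup.comap_map_eq_self_of_injective R.subtype_injective]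
  exact P.not_dvd_index

theorem IsSylowIn.mono {q : ℕ} [Fact q.Prime] {Q R S : Subgroup Y} (h : IsSylowIn q Q S)
    (hQR : Q ≤ R) (hRS : R ≤ S) : IsSylowIn q Q R :=
  ⟨hQR, h.isPGroup, fun hd => h.not_dvd
    (hd.trans (Dvd.intro _ (Subgroup.relIndex_mul_relIndex Q R S hQR hRS)))⟩

/-- Two Sylow subgroups of `Q M` are conjugate by an element of `M`. -/
theorem exists_conj_of_sup {q : ℕ} [Fact q.Prime] {Q Q' M : Subgroup Y} [M.Normal]
    (h : IsSylowIn q Q (Q ⊔ M)) (h' : IsSylowIn q Q' (Q ⊔ M)) :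
    ∃ m ∈ M, Q.map (MulAut.conj m).toMonoidHom = Q' := by
  obtain ⟨P, hP⟩ := h.exists_sylow
  obtain ⟨P', hP'⟩ := h'.exists_sylow
  obtain ⟨g, hg, e⟩ := Coprime.sylow_map_conj P P'
  rw [hP, hP'] at e
  rw [sup_comm, Subgroup.mem_sup_of_normal_left] at hg
  obtain ⟨m, hm, k, hk, rfl⟩ := hg
  refine ⟨m, hm, ?_⟩
  rw [← e, ← Coprime.map_conj_map_conj k m,
    Coprime.map_conj_eq_of_mem_normalizer (Subgroup.le_normalizer hk)]

omit [Finite Y] in
theorem le_normalizer_of_centralizer {A Q : Subgroup Y} {c : Y}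
    (hc : c ∈ Subgroup.centralizer (A : Set Y)) (hAQ : A ≤ Subgroup.normalizer (Q : Set Y)) :
    A ≤ Subgroup.normalizer (Q.map (MulAut.conj c).toMonoidHom : Set Y) := fun a ha => by
  refine Subgroup.mem_normalizer_iff_map_conj_eq.2 ?_
  show (Q.map (MulAut.conj c).toMonoidHom).map (MulAut.conj a).toMonoidHom = _
  rw [Coprime.map_conj_map_conj, Subgroup.mem_centralizer_iff.1 hc a ha,
    ← Coprime.map_conj_map_conj, Coprime.map_conj_eq_of_mem_normalizer (hAQ ha)]

/-- If all `A`-invariant characters of `M` are `Q`-invariant, then `C_M(A)` centralises `Q`. -/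
theorem inf_centralizer_le (p q : ℕ) [Fact p.Prime] [Fact q.Prime] {A Q M : Subgroup Y}
    (hA : IsPGroup p A) (hQ : IsPGroup q Q) (hAM : A ≤ Subgroup.normalizer (M : Set Y))
    (hQM : Q ≤ Subgroup.normalizer (M : Set Y)) (hAQ : A ≤ Subgroup.normalizer (Q : Set Y))
    (hpM : ¬ p ∣ Nat.card M) (hqM : ¬ q ∣ Nat.card M)
    (hfix : ∀ θ : IrrCharacter M,
      (∀ a ∈ A, ∀ x x' : M, (x' : Y) = a * x * a⁻¹ → (θ : M → ℂ) x' = (θ : M → ℂ) x) →
      ∀ k ∈ Q, ∀ x x' : M, (x' : Y) = k * x * k⁻¹ → (θ : M → ℂ) x' = (θ : M → ℂ) x) :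
    M ⊓ Subgroup.centralizer (A : Set Y) ≤ Subgroup.centralizer (Q : Set Y) := by
  classical
  set S := A ⊔ Q with hS
  have hSM : S ≤ Subgroup.normalizer (M : Set Y) := sup_le hAM hQM
  obtain ⟨i, hi⟩ := IsPGroup.iff_card.1 hA
  obtain ⟨j, hj⟩ := IsPGroup.iff_card.1 hQ
  have hrel : Q.relIndex S ∣ p ^ i := by
    rw [hS, CoprimeHall.relIndex_sup_eq_right hAQ, ← hi]
    exact Subgroup.relIndex_dvd_card Q A
  have hcardS : Nat.card S ∣ q ^ j * p ^ i := by
    rw [← Subgroup.relIndex_bot_left S, ← Subgroup.relIndex_mul_relIndex ⊥ Q S bot_le le_sup_right,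
      Subgroup.relIndex_bot_left, hj]
    exact Nat.mul_dvd_mul_left _ hrel
  have hcop : (Nat.card M).Coprime (Nat.card S) :=
    Nat.Coprime.coprime_dvd_right hcardS (Nat.Coprime.mul_right
      (Nat.Coprime.pow_right _ ((Nat.Prime.coprime_iff_not_dvd (Fact.out : q.Prime)).2 hqM).symm)
      (Nat.Coprime.pow_right _ ((Nat.Prime.coprime_iff_not_dvd (Fact.out : p.Prime)).2 hpM).symm))
  have hsolS : Group.IsSolvable S := by
    haveI : (Q.subgroupOf S).Normal := Subgroup.normal_subgroupOf_sup_of_le_normalizer hAQ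
    haveI : Group.IsSolvable (Q.subgroupOf S) := Coprime.isSolvable_of_isPGroup
      (hQ.comap_of_injective S.subtype S.subtype_injective)
    haveI : Group.IsSolvable (S ⧸ Q.subgroupOf S) := by
      obtain ⟨k, -, hk⟩ := (Nat.dvd_prime_pow Fact.out).1 hrel
      have hp : IsPGroup p (S ⧸ Q.subgroupOf S) := IsPGroup.of_card (n := k) hk
      haveI := hp.isNilpotent
      infer_instance
    exact Group.isSolvable_of_ker_le_range (Q.subgroupOf S).subtype (QuotientGroup.mk' (Q.subgroupOf S))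
      (by rw [QuotientGroup.ker_mk', Subgroup.range_subtype])
  have hsolA : Group.IsSolvable A := Coprime.isSolvable_of_isPGroup hA
  have hnA : ∀ a ∈ A, ∀ x ∈ M, a * x * a⁻¹ ∈ M :=
    fun a ha x hx => Hyperplane.conj_mem hAM ha hx
  have hnS : ∀ a ∈ S, ∀ x ∈ M, a * x * a⁻¹ ∈ M :=
    fun a ha x hx => Hyperplane.conj_mem hSM ha hx
  have hcA : (Nat.card M).Coprime (Nat.card A) :=
    hcop.coprime_dvd_right (Subgroup.card_dvd_of_le le_sup_left)
  set UA := (M ⊓ Subgroup.centralizer (A : Set Y)).subgroupOf M with hUA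
  set US := (M ⊓ Subgroup.centralizer (S : Set Y)).subgroupOf M with hUS
  have hle : US ≤ UA := fun x hx =>
    ⟨hx.1, Subgroup.centralizer_le (show (A : Set Y) ⊆ (S : Set Y) from
      SetLike.coe_subset_coe.2 le_sup_left) hx.2⟩
  have count : ∀ (T : Subgroup Y) (hn : ∀ a ∈ T, ∀ x ∈ M, a * x * a⁻¹ ∈ M),
      Group.IsSolvable T → (Nat.card M).Coprime (Nat.card T) →
      Nat.card (ConjClasses ((M ⊓ Subgroup.centralizer (T : Set Y)).subgroupOf M)) =
        Nat.card {θ : IrrCharacter M // ∀ s ∈ T, ∀ g g' : M, (g' : Y) = s * g * s⁻¹ →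
          (θ : M → ℂ) g' = (θ : M → ℂ) g} := by
    intro T hn hsol hc
    letI := Glauberman.conjSubAction M T hn
    have heq : FixedPoints.subgroup T M =
        (M ⊓ Subgroup.centralizer (T : Set Y)).subgroupOf M := by
      ext x
      exact Glauberman.fixed_iff_mem hn x
    rw [← heq, Nat.card_congr (Equiv.subtypeEquivRight fun θ => Glauberman.invariant_iff hn θ),
      ← Chars.card_irrCharacter]
    exact (Glauberman.card_fixed_irr _ T rfl M hc).symm
  have hcardeq : Nat.card (ConjClasses US) = Nat.card (ConjClasses UA) := by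
    rw [count S hnS hsolS hcop, count A hnA hsolA hcA]
    refine Nat.card_congr (Equiv.subtypeEquivRight fun θ => ⟨fun h s hs => h s
      (le_sup_left (b := Q) hs), fun h => ?_⟩)
    let T : Subgroup Y :=
      { carrier := {s | s ∈ Subgroup.normalizer (M : Set Y) ∧ ∀ g g' : M,
          (g' : Y) = s * g * s⁻¹ → (θ : M → ℂ) g' = (θ : M → ℂ) g}
        one_mem' := ⟨one_mem _, fun g g' e => congrArg _ (Subtype.ext (by simpa using e))⟩
        mul_mem' := fun {s t} hs ht => ⟨mul_mem hs.1 ht.1, fun g g' e => by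
          have h1 : t * g * t⁻¹ ∈ M := (Subgroup.mem_normalizer_iff.1 ht.1 g).1 g.2
          rw [hs.2 ⟨_, h1⟩ g' (by rw [e]; simp [mul_assoc]), ht.2 g ⟨_, h1⟩ rfl]⟩
        inv_mem' := fun {s} hs => ⟨inv_mem hs.1, fun g g' e =>
          (hs.2 g' g (by rw [e]; simp [mul_assoc])).symm⟩ }
    have hST : S ≤ T := sup_le (fun a ha => ⟨hAM ha, h a ha⟩)
      (fun k hk => ⟨hQM hk, hfix θ h k hk⟩)
    exact fun s hs => (hST hs).2
  let f : ConjClasses US → ConjClasses UA := ConjClasses.map (Subgroup.inclusion hle)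
  have hf : Function.Injective f := by
    intro a b hab
    obtain ⟨x, rfl⟩ := ConjClasses.mk_surjective a
    obtain ⟨y, rfl⟩ := ConjClasses.mk_surjective b
    obtain ⟨g, hg⟩ := isConj_iff.1 (ConjClasses.mk_eq_mk_iff_isConj.1 hab)
    obtain ⟨c, hc, hce⟩ := Coprime.exists_centralizer_conj_elem hSM hcop.symm (Or.inl hsolS)
      x.2.2 y.2.2 ⟨((g : M) : Y), (g : M).2, congrArg (fun z : UA => ((z : M) : Y)) hg⟩
    exact ConjClasses.mk_eq_mk_iff_isConj.2
      (isConj_iff.2 ⟨⟨⟨c, hc.1⟩, hc⟩, Subtype.ext (Subtype.ext hce)⟩)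
  have hbij : Function.Bijective f :=
    (Nat.bijective_iff_injective_and_card f).2 ⟨hf, hcardeq⟩
  letI := Fintype.ofFinite UA
  have htop := IsoBlocks.eq_top_of_forall_conj_mem (US.subgroupOf UA) fun g => by
    obtain ⟨a, ha⟩ := hbij.2 (ConjClasses.mk g)
    obtain ⟨x, rfl⟩ := ConjClasses.mk_surjective a
    obtain ⟨w, hw⟩ := isConj_iff.1 (ConjClasses.mk_eq_mk_iff_isConj.1 ha)
    refine ⟨w, ?_⟩
    rw [← hw, show w⁻¹ * (w * Subgroup.inclusion hle x * w⁻¹) * w = Subgroup.inclusion hle x by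
      group]
    exact x.2
  intro x hx
  have h1 : (⟨⟨x, hx.1⟩, hx⟩ : UA) ∈ US.subgroupOf UA := by
    rw [htop]
    exact Subgroup.mem_top _
  exact Subgroup.centralizer_le (show (Q : Set Y) ⊆ (S : Set Y) from
    SetLike.coe_subset_coe.2 le_sup_right) h1.2

/-- An invariant character of a normal `p'`-subgroup divides a character degree prime to `p`. -/
theorem exists_not_dvd_degree_over (p : ℕ) [Fact p.Prime] (P : Sylow p Y) (H : Subgroup Y)
    [H.Normal] (hH : ¬ p ∣ Nat.card H) (θ : IrrCharacter H)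
    (hθ : ∀ a ∈ (P : Subgroup Y), ∀ x x' : H, (x' : Y) = a * x * a⁻¹ →
      (θ : H → ℂ) x' = (θ : H → ℂ) x) :
    ∃ χ : IrrCharacter Y, ¬ p ∣ charDegree (χ : Y → ℂ) ∧
      charDegree (θ : H → ℂ) ∣ charDegree (χ : Y → ℂ) := by
  classical
  letI := Fintype.ofFinite Y
  letI := Fintype.ofFinite H
  set U := (P : Subgroup Y) ⊔ H with hU
  letI := Fintype.ofFinite U
  set N := H.subgroupOf U
  letI := Fintype.ofFinite N
  have hHU : H ≤ U := le_sup_right
  let e : N ≃* H := Subgroup.subgroupOfEquivOfLe hHU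
  set θ' := Glauberman.irrPull e θ
  have hθ'd : charDegree (θ' : N → ℂ) = charDegree (θ : H → ℂ) := by
    apply Nat.cast_injective (R := ℂ)
    rw [Chars.coe_charDegree, Chars.coe_charDegree]
    show (θ : H → ℂ) (e 1) = _
    rw [map_one]
  have hTU : (P : Subgroup Y) ≤ Chars.Induced.inertia H (θ : H → ℂ) := fun a ha =>
    Chars.Induced.mem_inertia_iff_forall.2 fun n n' hn => hθ a ha n n' hn
  have hUT : U ≤ Chars.Induced.inertia H (θ : H → ℂ) :=
    sup_le hTU (Chars.Induced.le_inertia (Chars.isClassFunction_coe θ))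
  have hinv : ∀ g : U, Chars.Induced.conjFun N g (θ' : N → ℂ) = θ' := fun g =>
    Chars.Induced.mem_inertia.1 (Chars.Induced.mem_inertia_iff_forall.2 fun n n' hn =>
      Chars.Induced.mem_inertia_iff_forall.1 (hUT g.2) (e n) (e n')
        (congrArg (fun z : U => (z : Y)) hn))
  have hidx : ∃ k, N.index = p ^ k := by
    obtain ⟨i, hi⟩ := IsPGroup.iff_card.1 P.2
    have h1 : N.index ∣ p ^ i := by
      show H.relIndex U ∣ _
      rw [hU, CoprimeHall.relIndex_sup_eq_right (fun a _ =>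
        (Subgroup.normalizer_eq_top_iff.2 ‹H.Normal›).symm ▸ Subgroup.mem_top a), ← hi]
      exact Subgroup.relIndex_dvd_card H _
    obtain ⟨k, -, hk⟩ := (Nat.dvd_prime_pow Fact.out).1 h1
    exact ⟨k, hk⟩
  have hcardN : Nat.card N = Nat.card H := Nat.card_congr e.toEquiv
  have hcop : Nat.Coprime N.index
      (detOrder (θ' : N → ℂ) * charDegree (θ' : N → ℂ)) := by
    obtain ⟨k, hk⟩ := hidx
    rw [hk]
    have hc : Nat.Coprime (p ^ k) (Nat.card N) := Nat.Coprime.pow_left _
      ((Fact.out : p.Prime).coprime_iff_not_dvd.2 (hcardN ▸ hH))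
    refine Nat.Coprime.mul_right (hc.coprime_dvd_right ?_)
      (hc.coprime_dvd_right (Chars.charDegree_dvd_card θ'))
    rw [Chars.Induced.detOrder_eq (Chars.isCharacter_coe θ')]
    refine orderOf_dvd_of_pow_eq_one (MonoidHom.ext fun n => ?_)
    rw [MonoidHom.pow_apply, ← map_pow, pow_card_eq_one', map_one, MonoidHom.one_apply]
  obtain ⟨ψ, hψ, -, -⟩ := Chars.Induced.exists_canonical_extension θ' hinv
    (Chars.coe_charDegree θ').symm hcop
  have hψd : (ψ : U → ℂ) 1 = (charDegree (θ : H → ℂ) : ℂ) := by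
    rw [← hθ'd, Chars.coe_charDegree, ← hψ 1, OneMemClass.coe_one]
  have hpI : ¬ p ∣ U.index * charDegree (θ : H → ℂ) := fun hd => by
    rcases (Fact.out : p.Prime).dvd_mul.1 hd with h | h
    · exact P.not_dvd_index (h.trans (Subgroup.index_dvd_of_le le_sup_left))
    · exact hH (h.trans (Chars.charDegree_dvd_card θ))
  obtain ⟨χ, hχ, hχp⟩ := Chars.Apps.exists_mult_ne_zero_not_dvd
    (Chars.Induced.isCharacter_indFun U (Chars.isCharacter_coe ψ))
    (d := U.index * charDegree (θ : H → ℂ))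
    (by rw [Chars.Induced.indFun_one_apply, hψd, Nat.cast_mul]) hpI
  rw [Chars.Induced.mult_indFun_irr] at hχ
  refine ⟨χ, hχp, ?_⟩
  have hψH : (fun h : H => (ψ : U → ℂ) (Subgroup.inclusion hHU h)) = (θ : H → ℂ) := funext fun h => by
    rw [show Subgroup.inclusion hHU h = ((e.symm h : N) : U) from Subtype.ext rfl, hψ]
    show (θ : H → ℂ) (e (e.symm h)) = _
    rw [MulEquiv.apply_symm_apply]
  have hover : Chars.Induced.mult (fun h : H => (χ : Y → ℂ) h) (θ : H → ℂ) ≠ 0 := by
    have h2 := Chars.Induced.mult_mul_mult_le_restrict (Subgroup.inclusion hHU)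
      (Chars.isCharacter_restrict (Chars.isCharacter_coe χ) U) ψ θ
    rw [hψH, Chars.Induced.mult_irr, if_pos rfl, mul_one] at h2
    exact fun h0 => hχ (Nat.le_zero.1 (h2.trans h0.le))
  have h3 := Chars.Induced.clifford_one χ θ hover
  rw [← Chars.coe_charDegree, ← Chars.coe_charDegree] at h3
  norm_cast at h3
  exact h3 ▸ dvd_mul_left _ _

/-- **Invariant characters of degree prime to `q`.** -/
theorem inf_centralizer_le_normalizer (p q : ℕ) [Fact p.Prime] [Fact q.Prime] (hpq : p ≠ q) :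
    ∀ (n : ℕ) (Y : Type u) [Group Y] [Finite Y], Nat.card Y = n → Cfsg.IsPSolvable q Y →
    ∀ (H A : Subgroup Y), H.Normal → IsPGroup p A → ¬ p ∣ Nat.card H →
    (∀ θ : IrrCharacter H,
      (∀ a ∈ A, ∀ x x' : H, (x' : Y) = a * x * a⁻¹ → (θ : H → ℂ) x' = (θ : H → ℂ) x) →
      ¬ q ∣ charDegree (θ : H → ℂ)) →
    ∀ Q : Subgroup Y, IsSylowIn q Q H → A ≤ Subgroup.normalizer (Q : Set Y) →
    H ⊓ Subgroup.centralizer (A : Set Y) ≤ Subgroup.normalizer (Q : Set Y) := by
  intro n
  induction n using Nat.strong_induction_on with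
  | _ n ih =>
    intro Y _ _ hn hqs H A hHn hA hpH hdeg Q hQ hAQ
    classical
    haveI := hHn
    by_cases hH : H = ⊥
    · intro c hc
      rw [hH] at hc
      rw [show c = 1 from hc.1]
      exact one_mem _
    obtain ⟨M, hMH, hMn, hM, hmin⟩ := Solvable.exists_minimal_normal_le H hH
    haveI := hMn
    set π := QuotientGroup.mk' M
    have hπ : Function.Surjective π := QuotientGroup.mk'_surjective M
    let f : H →* H.map π := π.subgroupMap H
    have hf : Function.Surjective f := π.subgroupMap_surjective H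
    have hcard : Nat.card (Y ⧸ M) < n := by
      rw [← hn, Subgroup.card_eq_card_quotient_mul_card_subgroup M]
      exact lt_mul_of_one_lt_right Nat.card_pos ((Subgroup.one_lt_card_iff_ne_bot M).2 hM)
    have hQ' : IsSylowIn q (Q.map π) (H.map π) := by
      refine ⟨Subgroup.map_mono hQ.le, hQ.isPGroup.map π, fun hd => hQ.not_dvd (hd.trans ?_)⟩
      rw [Subgroup.relIndex_map_map, QuotientGroup.ker_mk', sup_eq_left.2 hMH]
      exact Subgroup.relIndex_dvd_of_le_left H le_sup_left
    have hAQ' : A.map π ≤ Subgroup.normalizer (Q.map π : Set (Y ⧸ M)) :=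
      (Subgroup.map_mono hAQ).trans (Subgroup.le_normalizer_map π)
    have hquot := ih _ hcard (Y ⧸ M) rfl (Constrained.IsPSolvable.quotient hqs M) (H.map π)
      (A.map π) (hHn.map π hπ) (hA.map π)
      (fun hd => hpH (hd.trans (Constrained.card_map_dvd_card π H)))
      (fun θ hθ => by
        let θ' : IrrCharacter H := ⟨fun h => (θ : H.map π → ℂ) (f h),
          Chars.isIrrCharacter_comp θ.2 f hf⟩
        have hd : charDegree (θ' : H → ℂ) = charDegree (θ : H.map π → ℂ) := by
          apply Nat.cast_injective (R := ℂ)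
          rw [Chars.coe_charDegree, Chars.coe_charDegree]
          show (θ : H.map π → ℂ) (f 1) = _
          rw [map_one]
        rw [← hd]
        exact hdeg θ' fun a ha x x' e => hθ (π a) ⟨a, ha, rfl⟩ (f x) (f x') (by
          show π x' = π a * π x * (π a)⁻¹
          rw [e, map_mul, map_mul, map_inv]))
      (Q.map π) hQ' hAQ'
    -- `C_H(A)` normalises `Q M`
    set R := Q ⊔ M
    have hcR : ∀ c ∈ H ⊓ Subgroup.centralizer (A : Set Y), c ∈ Subgroup.normalizer (R : Set Y) := by
      intro c hc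
      have h1 : π c ∈ Subgroup.normalizer (Q.map π : Set (Y ⧸ M)) := hquot
        ⟨⟨c, hc.1, rfl⟩, Subgroup.mem_centralizer_iff.2 (by
          rintro _ ⟨a, ha, rfl⟩
          rw [← map_mul, ← map_mul, Subgroup.mem_centralizer_iff.1 hc.2 a ha])⟩
      have h2 : R = (Q.map π).comap π := by rw [Subgroup.comap_map_eq, QuotientGroup.ker_mk']
      rw [h2]
      refine Subgroup.mem_normalizer_iff.2 fun x => ?_
      rw [Subgroup.mem_comap, Subgroup.mem_comap, map_mul, map_mul, map_inv]
      exact Subgroup.mem_normalizer_iff.1 h1 (π x)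
    have hRH : R ≤ H := sup_le hQ.le hMH
    have hQR : IsSylowIn q Q R := hQ.mono le_sup_left hRH
    rcases Cfsg.Agent.S4885.minimal_normal_dichotomy q hqs M hM hmin with hMq | hMq
    · -- `M` is a `q`-group, so `Q M = Q`
      have hRq : IsPGroup q R := hQ.isPGroup.to_sup_of_normal_right hMq
      have hQe : Q = R := by
        refine le_antisymm le_sup_left (Subgroup.relIndex_eq_one.1 ?_)
        by_contra hne
        obtain ⟨k, -, hk⟩ := (Nat.dvd_prime_pow Fact.out).1
          ((IsPGroup.iff_card.1 hRq).choose_spec ▸ Subgroup.relIndex_dvd_card Q R)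
        rcases Nat.eq_zero_or_pos k with rfl | hk0
        · exact hne (by simpa using hk)
        · exact hQR.not_dvd (hk ▸ dvd_pow_self q hk0.ne')
      rw [hQe]
      exact hcR
    have hAM : A ≤ Subgroup.normalizer (M : Set Y) := by
      rw [Subgroup.normalizer_eq_top_iff.2 hMn]; exact le_top
    have hQM : Q ≤ Subgroup.normalizer (M : Set Y) := by
      rw [Subgroup.normalizer_eq_top_iff.2 hMn]; exact le_top
    have hAH : A ≤ Subgroup.normalizer (H : Set Y) := by
      rw [Subgroup.normalizer_eq_top_iff.2 hHn]; exact le_top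
    have hcopA : ∀ K : Subgroup Y, K ≤ H → (Nat.card A).Coprime (Nat.card K) := by
      intro K hK
      obtain ⟨i, hi⟩ := IsPGroup.iff_card.1 hA
      rw [hi]
      exact Nat.Coprime.pow_left _ ((Fact.out : p.Prime).coprime_iff_not_dvd.2
        fun hd => hpH (hd.trans (Subgroup.card_dvd_of_le hK)))
    have hsolA : Group.IsSolvable A := Coprime.isSolvable_of_isPGroup hA
    -- conjugates of `Q` under `C_H(A)` are conjugates under `M`
    have hconj : ∀ c ∈ H ⊓ Subgroup.centralizer (A : Set Y),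
        ∃ m ∈ M, Q.map (MulAut.conj m).toMonoidHom = Q.map (MulAut.conj c).toMonoidHom := by
      intro c hc
      refine exists_conj_of_sup hQR ⟨?_, hQ.isPGroup.map _, ?_⟩
      · exact (Subgroup.map_mono le_sup_left).trans
          (Coprime.map_conj_eq_of_mem_normalizer (hcR c hc)).le
      · have hR : R.map (MulAut.conj c).toMonoidHom = R :=
          Coprime.map_conj_eq_of_mem_normalizer (hcR c hc)
        change ¬ q ∣ (Q.map (MulAut.conj c).toMonoidHom).relIndex R
        rw [← hR, Subgroup.relIndex_map_map_of_injective _ _ (MulAut.conj c).injective]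
        exact hQR.not_dvd
    -- invariant characters of `M` are fixed by `Q`
    have hfix : ∀ θ : IrrCharacter M,
        (∀ a ∈ A, ∀ x x' : M, (x' : Y) = a * x * a⁻¹ → (θ : M → ℂ) x' = (θ : M → ℂ) x) →
        ∀ k ∈ Q, ∀ x x' : M, (x' : Y) = k * x * k⁻¹ → (θ : M → ℂ) x' = (θ : M → ℂ) x := by
      intro θ hθ
      letI := Fintype.ofFinite H
      have hnH : ∀ a ∈ A, ∀ x ∈ H, a * x * a⁻¹ ∈ H := fun a _ x hx => hHn.conj_mem x hx a
      letI := Glauberman.conjSubAction H A hnH
      let N := M.subgroupOf H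
      letI := Fintype.ofFinite N
      let e : N ≃* M := Subgroup.subgroupOfEquivOfLe hMH
      set θ' := Glauberman.irrPull e θ
      obtain ⟨χ, hχ, hover⟩ := Glauberman.exists_fixed_over _ A rfl H N (hcopA H le_rfl).symm
        (fun s m hm => hMn.conj_mem _ hm (s : Y)) θ'
        (fun s m m' hm => hθ s s.2 (e m) (e m') (congrArg (fun z : H => (z : Y)) hm))
      have hχq := hdeg χ ((Glauberman.invariant_iff hnH χ).2 hχ)
      have hover' : Chars.Induced.mult (fun m : N => (χ : H → ℂ) m) (θ' : N → ℂ) ≠ 0 := by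
        intro h0
        have h2 := Glauberman.classInner_eq_mult N.subtype χ θ'
        have h3 := Chars.Induced.classInner_eq_mult
          (Chars.isCharacter_restrict (Chars.isCharacter_coe χ) N) θ'
        rw [h0, Nat.cast_zero] at h3
        exact hover (Nat.cast_eq_zero.1 (h2.symm.trans h3))
      have hcl := Chars.Induced.clifford_one χ θ' hover'
      rw [← Chars.coe_charDegree, ← Chars.coe_charDegree] at hcl
      norm_cast at hcl
      set T := Chars.Induced.inertia N (θ' : N → ℂ) with hT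
      set T' := T.map H.subtype
      have hTH : T' ≤ H := Subgroup.map_subtype_le T
      have hTq : ¬ q ∣ T'.relIndex H := by
        rw [Subgroup.relIndex, Subgroup.subgroupOf,
          Subgroup.comap_map_eq_self_of_injective H.subtype_injective]
        exact fun hd => hχq (hcl ▸ (dvd_mul_of_dvd_left (dvd_mul_of_dvd_right hd _) _))
      have hAT : A ≤ Subgroup.normalizer (T' : Set Y) := by
        refine Hyperplane.le_normalizer_of_conj_mem fun a ha => ?_
        rintro _ ⟨t, ht, rfl⟩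
        refine ⟨⟨_, hnH a ha t t.2⟩, Chars.Induced.mem_inertia_iff_forall.2 fun x x' e' => ?_, rfl⟩
        have e1 : ((x' : H) : Y) = a * t * a⁻¹ * (x : H) * (a * t * a⁻¹)⁻¹ :=
          congrArg (fun z : H => (z : Y)) e'
        let x1 : N := ⟨⟨a⁻¹ * (x : H) * a⁻¹⁻¹, hHn.conj_mem _ (x : H).2 a⁻¹⟩,
          hMn.conj_mem _ x.2 a⁻¹⟩
        let x2 : N := ⟨t * (x1 : H) * t⁻¹, (inferInstance : N.Normal).conj_mem _ x1.2 t⟩
        have s1 : (θ' : N → ℂ) x1 = (θ' : N → ℂ) x :=
          hθ a⁻¹ (inv_mem ha) (e x) (e x1) rfl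
        have s2 : (θ' : N → ℂ) x2 = (θ' : N → ℂ) x1 :=
          Chars.Induced.mem_inertia_iff_forall.1 ht x1 x2 rfl
        have s3 : (θ' : N → ℂ) x' = (θ' : N → ℂ) x2 := hθ a ha (e x2) (e x') (by
          show ((x' : H) : Y) = a * ((x2 : H) : Y) * a⁻¹
          rw [e1]
          simp only [x2, x1, Subgroup.coe_mul, Subgroup.coe_inv]
          group)
        rw [s3, s2, s1]
      obtain ⟨S₁, hS₁⟩ := Hyperplane.exists_invariant_sylow hA
        (fun hd => hpH (hd.trans (Subgroup.card_dvd_of_le hTH))) hAT q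
      have hS : IsSylowIn q ((S₁ : Subgroup T').map T'.subtype) H := by
        obtain ⟨h1, h2, h3⟩ := isSylowIn_map S₁
        refine ⟨h1.trans hTH, h2, fun hd => ?_⟩
        rw [← Subgroup.relIndex_mul_relIndex _ _ _ h1 hTH] at hd
        exact ((Fact.out : q.Prime).dvd_mul.1 hd).elim h3 hTq
      obtain ⟨P₀, hP₀⟩ := hQ.exists_sylow
      obtain ⟨P₁, hP₁⟩ := hS.exists_sylow
      obtain ⟨c, hc, hce⟩ := Coprime.invariant_sylow_conj hAH (hcopA H le_rfl) (Or.inl hsolA)
        P₀ P₁ (by rw [hP₀]; exact hAQ) (by rw [hP₁]; exact hS₁)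
      obtain ⟨m, hm, hme⟩ := hconj c hc
      intro k hk x x' e'
      have ht : m * k * m⁻¹ ∈ T' := by
        have : m * k * m⁻¹ ∈ Q.map (MulAut.conj m).toMonoidHom := ⟨k, hk, rfl⟩
        rw [hme, ← hP₀, hce, hP₁] at this
        exact Subgroup.map_subtype_le _ this
      obtain ⟨t, htT, hte⟩ := ht
      have hcls : ∀ (g : M) (y y' : M), (y' : Y) = g * y * (g : Y)⁻¹ →
          (θ : M → ℂ) y' = (θ : M → ℂ) y := fun g y y' hy => by
        rw [show y' = g * y * g⁻¹ from Subtype.ext hy, Chars.isClassFunction_coe θ y g]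
      -- `k x k⁻¹ = m⁻¹ (t (m x m⁻¹) t⁻¹) m`
      let y : N := ⟨⟨m * x * m⁻¹, hMH (mul_mem (mul_mem hm x.2) (inv_mem hm))⟩,
        mul_mem (mul_mem hm x.2) (inv_mem hm)⟩
      let y' : N := ⟨t * (y : H) * t⁻¹, (inferInstance : N.Normal).conj_mem _ y.2 t⟩
      have s1 : (θ : M → ℂ) (e y) = (θ : M → ℂ) x := hcls ⟨m, hm⟩ x (e y) rfl
      have s2 : (θ : M → ℂ) (e y') = (θ : M → ℂ) (e y) :=
        Chars.Induced.mem_inertia_iff_forall.1 htT y y' rfl
      have s3 : (θ : M → ℂ) (e y') = (θ : M → ℂ) x' := hcls ⟨m, hm⟩ x' (e y') (by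
        show (t : Y) * (m * x * m⁻¹) * (t : Y)⁻¹ = m * x' * m⁻¹
        rw [show (t : Y) = m * k * m⁻¹ from hte, e']
        group)
      rw [← s3, s2, s1]
    have hU := inf_centralizer_le p q hA hQ.isPGroup hAM hQM hAQ
      (fun hd => hpH (hd.trans (Subgroup.card_dvd_of_le hMH))) hMq hfix
    intro c hc
    obtain ⟨m, hm, hme⟩ := hconj c hc
    obtain ⟨u, hu, hue⟩ := Coprime.exists_centralizer_map_conj hAM (hcopA M hMH) (Or.inl hsolA)
      hAQ (le_normalizer_of_centralizer hc.2 hAQ) ⟨m, hm, hme⟩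
    have hun : u ∈ Subgroup.normalizer (Q : Set Y) := Subgroup.centralizer_le_normalizer _ (hU hu)
    refine Subgroup.mem_normalizer_iff_map_conj_eq.2 ?_
    show Q.map (MulAut.conj c).toMonoidHom = Q
    rw [← hue, Coprime.map_conj_eq_of_mem_normalizer hun]

end CfsgLib.PQDegrees
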