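import Cfsg.Agent.PQDegrees.Invariant
import Cfsg.Agent.Constrained.HallHigman
import Cfsg.Agent.Solvable.SchurZassenhaus
import Mathlib.GroupTheory.Nilpotent

/-!
# Characters of p'-degree having q'-degree

If `G` is `p`- and `q`-solvable with `O_{p'}(G) = 1` and every irreducible character of degree
prime to `p` has degree prime to `q`, then `q` does not divide `|G|`.
-/

set_option autoImplicit false

namespace CfsgLib.PQDegrees

open Cfsg
open scoped Pointwise commutatorElement

universe u

/-- In a p-group, a proper subgroup is killed by a linear character that is nontrivial on a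
given element outside some maximal subgroup over it. -/
theorem exists_linear_killing {P : Type u} [Group P] [Finite P] {p : ℕ} [Fact p.Prime]
    (hP : IsPGroup p P) {Z N : Subgroup P} (hZ : Z ≠ ⊤) (hZN : N ⊔ Z = ⊤) :
    ∃ l : P →* ℂˣ, (∀ z ∈ Z, l z = 1) ∧ ∃ n ∈ N, l n ≠ 1 := by
  obtain ⟨K, hK, hZK⟩ := (eq_top_or_exists_le_coatom Z).resolve_left hZ
  haveI := hP.isNilpotent
  haveI hKn : K.Normal := Subgroup.NormalizerCondition.normal_of_coatom K
    Group.normalizerCondition_of_isNilpotent hK
  obtain ⟨n, hnN, hnK⟩ : ∃ n ∈ N, n ∉ K := by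
    by_contra! hle
    exact hK.1 (top_le_iff.1 (hZN ▸ sup_le hle hZK))
  have hcomm : commutator P ≤ K :=
    (PGroup.commutator_le_frattini hP).trans (frattini_le_coatom hK)
  have hq : commutator (P ⧸ K) = ⊥ := by
    rw [commutator_def, ← Subgroup.map_top_of_surjective (QuotientGroup.mk' K)
      (QuotientGroup.mk'_surjective K), ← Subgroup.map_commutator, Subgroup.map_eq_bot_iff,
      QuotientGroup.ker_mk']
    exact hcomm
  obtain ⟨l, hl⟩ := Chars.exists_linChar_ne_one (g := QuotientGroup.mk' K n) (by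
    rw [hq]
    exact fun h => hnK ((QuotientGroup.eq_one_iff n).1 h))
  refine ⟨l.comp (QuotientGroup.mk' K), fun z hz => ?_, n, hnN, hl⟩
  show l (QuotientGroup.mk' K z) = 1
  rw [show QuotientGroup.mk' K z = 1 from (QuotientGroup.eq_one_iff z).2 (hZK hz), map_one]

/-- **The one-sided statement.** -/
theorem not_dvd_card (p q : ℕ) [Fact p.Prime] [Fact q.Prime] (hpq : p ≠ q) :
    ∀ (n : ℕ) (X : Type u) [Group X] [Finite X], Nat.card X = n → Cfsg.IsPSolvable p X →
    Cfsg.IsPSolvable q X → Cfsg.pPrimeCore p X = ⊥ →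
    (∀ χ : IrrCharacter X, ¬ p ∣ charDegree (χ : X → ℂ) → ¬ q ∣ charDegree (χ : X → ℂ)) →
    ¬ q ∣ Nat.card X := by
  intro n
  induction n using Nat.strong_induction_on with
  | _ n ih =>
    intro X _ _ hn hps hqs hcore hdeg
    classical
    rcases subsingleton_or_nontrivial X with h1 | h1
    · rw [Nat.card_unique]
      exact (Fact.out : q.Prime).not_dvd_one
    set N := Cfsg.pCore p X with hNdef
    haveI hNn : N.Normal := inferInstance
    have hN : N ≠ ⊥ := (Constrained.IsPSolvable.core_ne_bot hps).resolve_right fun h => h hcore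
    have hNp : IsPGroup p N := Constrained.isPGroup_pCore
    have hCN : Subgroup.centralizer (N : Set X) ≤ N := Constrained.centralizer_pCore_le hps hcore
    set π := QuotientGroup.mk' N
    have hπ : Function.Surjective π := QuotientGroup.mk'_surjective N
    set Lb := Cfsg.pPrimeCore p (X ⧸ N)
    haveI : Lb.Normal := inferInstance
    have hLb : ¬ p ∣ Nat.card Lb := Constrained.pPrimeCore_not_dvd
    -- by induction `q` does not divide the order above `L`
    have hup : ¬ q ∣ Nat.card ((X ⧸ N) ⧸ Lb) := by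
      refine ih _ ?_ ((X ⧸ N) ⧸ Lb) rfl
        (Constrained.IsPSolvable.quotient (Constrained.IsPSolvable.quotient hps N) Lb)
        (Constrained.IsPSolvable.quotient (Constrained.IsPSolvable.quotient hqs N) Lb)
        Constrained.pPrimeCore_quotient_pPrimeCore fun χ hχ => ?_
      · refine lt_of_le_of_lt (Nat.le_of_dvd Nat.card_pos (Subgroup.card_quotient_dvd_card Lb)) ?_
        rw [← hn, Subgroup.card_eq_card_quotient_mul_card_subgroup N]
        exact lt_mul_of_one_lt_right Nat.card_pos ((Subgroup.one_lt_card_iff_ne_bot N).2 hN)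
      · have := hdeg (Chars.inflate N (Chars.inflate Lb χ))
        rw [Chars.charDegree_inflate, Chars.charDegree_inflate] at this
        exact this hχ
    by_contra hq
    have hqL : q ∣ Nat.card Lb := by
      rw [Subgroup.card_eq_card_quotient_mul_card_subgroup N,
        Subgroup.card_eq_card_quotient_mul_card_subgroup Lb] at hq
      rcases (Fact.out : q.Prime).dvd_mul.1 hq with h | h
      · exact ((Fact.out : q.Prime).dvd_mul.1 h).resolve_left hup
      · exact absurd h (Cfsg.Agent.S4885.not_dvd_of_isPGroup hNp hpq.symm)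
    -- a complement of `N` in `L`
    set L := Lb.comap π with hL
    haveI hLn : L.Normal := (inferInstance : Lb.Normal).comap π
    have hNL : N ≤ L := fun x hx => by
      show π x ∈ Lb
      rw [show π x = 1 from (QuotientGroup.eq_one_iff x).2 hx]
      exact one_mem _
    obtain ⟨i, hi⟩ := IsPGroup.iff_card.1 hNp
    have hcop : (Nat.card Lb).Coprime (Nat.card N) := by
      rw [hi]
      exact Nat.Coprime.pow_right _ ((Fact.out : p.Prime).coprime_iff_not_dvd.2 hLb).symm
    have hidx : (N.subgroupOf L).index = Nat.card Lb := by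
      show N.relIndex L = _
      rw [Constrained.relIndex_eq_card_map, hL, Subgroup.map_comap_eq_self_of_surjective hπ]
    have hcN : Nat.card (N.subgroupOf L) = Nat.card N :=
      Nat.card_congr (Subgroup.subgroupOfEquivOfLe hNL).toEquiv
    obtain ⟨H₀, hH₀⟩ := Subgroup.exists_right_complement'_of_coprime (N := N.subgroupOf L)
      (by rw [hcN, hidx]; exact hcop.symm)
    set H := H₀.map L.subtype with hH
    have hHc : Nat.card H = Nat.card Lb := by
      rw [hH, Constrained.card_map_of_injective _ L.subtype_injective, ← hidx,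
        hH₀.symm.index_eq_card]
    have hHL : H ≤ L := Subgroup.map_subtype_le _
    have hsup : H ⊔ N = L := by
      have := congrArg (Subgroup.map L.subtype) hH₀.sup_eq_top
      rw [Subgroup.map_sup, Subgroup.subgroupOf_map_subtype, inf_eq_left.2 hNL,
        ← MonoidHom.range_eq_map, Subgroup.range_subtype] at this
      rw [sup_comm]; exact this
    have hHN : H ⊓ N = ⊥ :=
      Subgroup.inf_eq_bot_of_coprime (by rw [hHc]; exact hcop)
    have hHmap : H.map π = Lb := by
      rw [← Subgroup.map_comap_eq_self_of_surjective hπ Lb, ← hL, ← hsup, Subgroup.map_sup,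
        (Subgroup.map_eq_bot_iff N (f := π)).2 (QuotientGroup.ker_mk' N).ge, sup_bot_eq]
    have hinj : ∀ x ∈ H, ∀ y ∈ H, π x = π y → x = y := by
      intro x hx y hy e
      have : y⁻¹ * x ∈ H ⊓ N :=
        Subgroup.mem_inf.2 ⟨mul_mem (inv_mem hy) hx, QuotientGroup.eq.1 e.symm⟩
      rw [hHN, Subgroup.mem_bot, inv_mul_eq_one] at this
      exact this.symm
    have hpH : ¬ p ∣ Nat.card H := hHc ▸ hLb
    obtain ⟨P⟩ : Nonempty (Sylow p X) := inferInstance
    have hNP : N ≤ (P : Subgroup X) := by
      have h1 := P.3 (hNp.to_sup_of_normal_left P.2) le_sup_right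
      exact le_sup_left.trans h1.le
    set A := (P : Subgroup X) ⊓ Subgroup.normalizer (H : Set X) with hA
    have hAp : IsPGroup p A := P.2.to_le inf_le_left
    have hAH : A ≤ Subgroup.normalizer (H : Set X) := inf_le_right
    -- Frattini argument
    have hfrat : ∀ y ∈ (P : Subgroup X), ∃ m ∈ N, m * y ∈ A := by
      intro y hy
      have hfix : ∀ K : Subgroup X, K.Normal → MulAut.conj y • K = K := fun K hK => by
        haveI := hK
        exact Subgroup.Normal.map_conj_eq (H := K) y
      obtain ⟨m, hm, hme⟩ := Solvable.exists_conj_of_sup_eq N (MulAut.conj y • H) H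
        (by conv_lhs => rw [← hfix N inferInstance]
            rw [← Subgroup.smul_sup, hsup, hfix L inferInstance])
        (by rw [Nat.card_congr (Subgroup.equivSMul _ H).symm.toEquiv, hHc]; exact hcop)
        (by rw [hHc]; exact hcop) (Or.inl (Coprime.isSolvable_of_isPGroup hNp))
      rw [smul_smul, ← map_mul] at hme
      exact ⟨m, hm, mul_mem (hNP hm) hy, Subgroup.mem_normalizer_iff_map_conj_eq.2 hme⟩
    obtain ⟨Q₁, hQ₁⟩ := Hyperplane.exists_invariant_sylow hAp hpH hAH q
    set Q := (Q₁ : Subgroup H).map H.subtype with hQdef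
    have hQ : IsSylowIn q Q H := isSylowIn_map Q₁
    have hQne : Q ≠ ⊥ := fun e => by
      rw [hQdef, Subgroup.map_eq_bot_iff_of_injective _ H.subtype_injective] at e
      exact Q₁.ne_bot_of_dvd_card (hHc ▸ hqL) e
    -- `C_H(A)` normalises `Q`
    have hPmap : (P : Subgroup X).map π = A.map π := by
      refine le_antisymm ?_ (Subgroup.map_mono inf_le_left)
      rintro _ ⟨y, hy, rfl⟩
      obtain ⟨m, hm, hmA⟩ := hfrat y hy
      refine ⟨m * y, hmA, ?_⟩
      rw [map_mul, show π m = 1 from (QuotientGroup.eq_one_iff m).2 hm, one_mul]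
    let Pb : Sylow p (X ⧸ N) := P.mapSurjective hπ
    have hPb : (Pb : Subgroup (X ⧸ N)) = (P : Subgroup X).map π := rfl
    have hlem := inf_centralizer_le_normalizer p q hpq _ (X ⧸ N) rfl
      (Constrained.IsPSolvable.quotient hqs N) Lb (A.map π) inferInstance (hAp.map π) hLb
      (fun θ hθ => by
        obtain ⟨χ, hχp, hχd⟩ := exists_not_dvd_degree_over p Pb Lb hLb θ
          (fun a ha => hθ a (by rwa [← hPmap]))
        have := hdeg (Chars.inflate N χ)
        rw [Chars.charDegree_inflate] at this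
        exact fun hd => this hχp (hd.trans hχd))
      (Q.map π)
      ⟨(Subgroup.map_mono hQ.le).trans hHmap.le, hQ.isPGroup.map π, fun hd => hQ.not_dvd (by
        have hinjf : Function.Injective (π.comp H.subtype) := fun a b e =>
          Subtype.ext (hinj a a.2 b b.2 e)
        have hQf : Q.map π = (Q.subgroupOf H).map (π.comp H.subtype) := by
          rw [← Subgroup.map_map, Subgroup.subgroupOf_map_subtype, inf_eq_left.2 hQ.le]
        have hHf : H.map π = (⊤ : Subgroup H).map (π.comp H.subtype) := by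
          rw [← Subgroup.map_map, ← MonoidHom.range_eq_map, Subgroup.range_subtype]
        rwa [← hHmap, hQf, hHf, Subgroup.relIndex_map_map_of_injective _ _ hinjf,
          Subgroup.relIndex_top_right] at hd)⟩
      ((Subgroup.map_mono hQ₁).trans (Subgroup.le_normalizer_map π))
    have hCQ : ∀ c ∈ H ⊓ Subgroup.centralizer (A : Set X),
        Q.map (MulAut.conj c).toMonoidHom = Q := by
      intro c hc
      have hcb : π c ∈ Subgroup.normalizer (Q.map π : Set (X ⧸ N)) := hlem
        ⟨hHmap.le ⟨c, hc.1, rfl⟩, Subgroup.mem_centralizer_iff.2 (by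
          rintro _ ⟨a, ha, rfl⟩
          rw [← map_mul, ← map_mul, Subgroup.mem_centralizer_iff.1 hc.2 a ha])⟩
      refine Coprime.map_conj_eq_of_mem_normalizer (Subgroup.mem_normalizer_iff.2 fun x => ?_)
      constructor
      · intro hx
        obtain ⟨z, hz, hze⟩ := (Subgroup.mem_normalizer_iff.1 hcb (π x)).1 ⟨x, hx, rfl⟩
        rw [← map_inv, ← map_mul, ← map_mul] at hze
        rwa [← hinj z (hQ.le hz) _ (mul_mem (mul_mem hc.1 (hQ.le hx)) (inv_mem hc.1)) hze]
      · intro hx
        obtain ⟨z, hz, hze⟩ := (Subgroup.mem_normalizer_iff.1 hcb (π x)).2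
          (by rw [← map_inv, ← map_mul, ← map_mul]; exact ⟨_, hx, rfl⟩)
        have hxH : x ∈ H := by
          have hcH : c ∈ H := hc.1
          have h2 : _ ∈ H := mul_mem (mul_mem (inv_mem hcH) (hQ.le hx)) hcH
          simpa [mul_assoc] using h2
        rwa [← hinj z (hQ.le hz) x hxH hze]
    -- a linear character of `P`
    have hQnN : Q ≤ Subgroup.normalizer (N : Set X) := by
      rw [Subgroup.normalizer_eq_top_iff.2 hNn]; exact le_top
    have hAnC : A ≤ Subgroup.normalizer ((N ⊓ Subgroup.centralizer (Q : Set X) : Subgroup X) : Set X) :=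
      Coprime.le_normalizer_inf' (by rw [Subgroup.normalizer_eq_top_iff.2 hNn]; exact le_top)
        (Coprime.le_normalizer_centralizer hQ₁)
    set Z := ((N ⊓ Subgroup.centralizer (Q : Set X)) ⊔ A).subgroupOf (P : Subgroup X) with hZ
    have hYP : (N ⊓ Subgroup.centralizer (Q : Set X)) ⊔ A ≤ (P : Subgroup X) :=
      sup_le (inf_le_left.trans hNP) inf_le_left
    have hZne : Z ≠ ⊤ := by
      intro e
      rw [hZ, Subgroup.subgroupOf_eq_top] at e
      have hNC : N ≤ Subgroup.centralizer (Q : Set X) := by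
        intro x hx
        have hx' : x ∈ (((N ⊓ Subgroup.centralizer (Q : Set X)) ⊔ A : Subgroup X) : Set X) :=
          e (hNP hx)
        rw [Subgroup.coe_mul_of_right_le_normalizer_left _ _ hAnC] at hx'
        obtain ⟨k, hk, a, ha, rfl⟩ := hx'
        have haN : a ∈ N := by
          have hkN : k ∈ N := hk.1
          have := mul_mem (inv_mem hkN) hx
          rwa [inv_mul_cancel_left] at this
        refine mul_mem hk.2 (Subgroup.mem_centralizer_iff.2 fun h hh => ?_)
        have hhH : h ∈ H := hQ.le hh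
        have h1 : a * h * a⁻¹ * h⁻¹ ∈ H ⊓ N := Subgroup.mem_inf.2 ⟨mul_mem
          ((Subgroup.mem_normalizer_iff.1 (hAH ha) h).1 hhH) (inv_mem hhH), by
            rw [show a * h * a⁻¹ * h⁻¹ = a * (h * a⁻¹ * h⁻¹) by group]
            exact mul_mem haN (hNn.conj_mem _ (inv_mem haN) h)⟩
        rw [hHN, Subgroup.mem_bot, mul_inv_eq_one, mul_inv_eq_iff_eq_mul] at h1
        exact h1.symm
      have hQN : Q ≤ N := (Subgroup.le_centralizer_iff.1 hNC).trans hCN
      exact hQne (le_bot_iff.1 ((le_inf hQ.le hQN).trans hHN.le))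
    have hNZ : N.subgroupOf (P : Subgroup X) ⊔ Z = ⊤ := by
      refine eq_top_iff.2 fun y _ => ?_
      obtain ⟨m, hm, hmA⟩ := hfrat y y.2
      rw [show y = ⟨m⁻¹, hNP (inv_mem hm)⟩ * ⟨m * y, mul_mem (hNP hm) y.2⟩ from
        Subtype.ext (inv_mul_cancel_left m (y : X)).symm]
      exact Subgroup.mul_mem_sup (show (⟨m⁻¹, hNP (inv_mem hm)⟩ : P) ∈ N.subgroupOf _ from
        inv_mem hm) (show (⟨m * y, mul_mem (hNP hm) y.2⟩ : P) ∈ Z from Subgroup.mem_sup_right hmA)
    obtain ⟨l, hlZ, n₀, hn₀, hln₀⟩ := exists_linear_killing P.2 hZne hNZ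
    set lN : N →* ℂˣ := l.comp (Subgroup.inclusion hNP) with hlN
    -- a character of p'-degree over it
    letI := Fintype.ofFinite X
    letI := Fintype.ofFinite (P : Subgroup X)
    letI := Fintype.ofFinite N
    obtain ⟨χ, hχ, hχp⟩ := Chars.Apps.exists_mult_ne_zero_not_dvd
      (Chars.Induced.isCharacter_indFun (P : Subgroup X) (Chars.isCharacter_coe (Chars.linChar l)))
      (d := (P : Subgroup X).index)
      (by rw [Chars.Induced.indFun_one_apply, Chars.linChar_map_one, mul_one]) P.not_dvd_index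
    rw [Chars.Induced.mult_indFun_irr] at hχ
    have hover : Chars.Induced.mult (fun x : N => (χ : X → ℂ) x)
        (Chars.linChar lN : N → ℂ) ≠ 0 := by
      have h2 := Chars.Induced.mult_mul_mult_le_restrict (Subgroup.inclusion hNP)
        (Chars.isCharacter_restrict (Chars.isCharacter_coe χ) (P : Subgroup X))
        (Chars.linChar l) (Chars.linChar lN)
      have he : (fun x : N => (Chars.linChar l : ↥(P : Subgroup X) → ℂ) (Subgroup.inclusion hNP x)) =
        (Chars.linChar lN : N → ℂ) := rfl
      rw [he, Chars.Induced.mult_irr, if_pos rfl, mul_one] at h2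
      exact fun h0 => hχ (Nat.le_zero.1 (h2.trans h0.le))
    have hcl := Chars.Induced.clifford_one χ (Chars.linChar lN) hover
    rw [← Chars.coe_charDegree, ← Chars.coe_charDegree] at hcl
    norm_cast at hcl
    set T := Chars.Induced.inertia N (Chars.linChar lN : N → ℂ) with hT
    have hTq : ¬ q ∣ T.index := fun hd =>
      hdeg χ hχp (hcl ▸ dvd_mul_of_dvd_left (dvd_mul_of_dvd_right hd _) _)
    have hNT : N ≤ T := Chars.Induced.le_inertia (Chars.isClassFunction_coe _)
    have hAT : A ≤ T := fun a ha => Chars.Induced.mem_inertia_iff_forall.2 fun x x' e => by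
      show (lN x' : ℂ) = (lN x : ℂ)
      have : Subgroup.inclusion hNP x' = (⟨a, ha.1⟩ : P) * Subgroup.inclusion hNP x * (⟨a, ha.1⟩ : P)⁻¹ :=
        Subtype.ext e
      rw [hlN, MonoidHom.comp_apply, MonoidHom.comp_apply, this, map_mul, map_mul, map_inv,
        mul_right_comm, mul_inv_cancel, one_mul]
    have hTH : ¬ q ∣ (T ⊓ H).relIndex H := by
      rw [Subgroup.inf_relIndex_right]
      intro hd
      refine hTq (hd.trans ?_)
      have hTc : T = (T.map π).comap π := by
        rw [Subgroup.comap_map_eq, QuotientGroup.ker_mk', sup_eq_left.2 hNT]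
      rw [hTc, Subgroup.relIndex_comap, hHmap, Subgroup.index_comap_of_surjective _ hπ,
        ← CoprimeHall.relIndex_sup_eq_left (U := T.map π) (E := Lb)
          (by rw [Subgroup.normalizer_eq_top_iff.2 (inferInstance : Lb.Normal)]; exact le_top)]
      exact Dvd.intro _ (Subgroup.relIndex_mul_index le_sup_left)
    have hATn : A ≤ Subgroup.normalizer ((T ⊓ H : Subgroup X) : Set X) :=
      Coprime.le_normalizer_inf' (hAT.trans Subgroup.le_normalizer) hAH
    obtain ⟨Q₂, hQ₂⟩ := Hyperplane.exists_invariant_sylow hAp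
      (fun hd => hpH (hd.trans (Subgroup.card_dvd_of_le inf_le_right))) hATn q
    have hQ' : IsSylowIn q ((Q₂ : Subgroup (T ⊓ H : Subgroup X)).map (T ⊓ H).subtype) H := by
      obtain ⟨h1, h2, h3⟩ := isSylowIn_map Q₂
      refine ⟨h1.trans inf_le_right, h2, fun hd => ?_⟩
      rw [← Subgroup.relIndex_mul_relIndex _ _ _ h1 inf_le_right] at hd
      exact ((Fact.out : q.Prime).dvd_mul.1 hd).elim h3 hTH
    obtain ⟨P₀, hP₀⟩ := hQ.exists_sylow
    obtain ⟨P₁, hP₁⟩ := hQ'.exists_sylow
    obtain ⟨c, hc, hce⟩ := Coprime.invariant_sylow_conj hAH (by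
      obtain ⟨j, hj⟩ := IsPGroup.iff_card.1 hAp
      rw [hj]
      exact Nat.Coprime.pow_left _ ((Fact.out : p.Prime).coprime_iff_not_dvd.2 hpH))
      (Or.inl (Coprime.isSolvable_of_isPGroup hAp)) P₀ P₁
      (by rw [hP₀]; exact hQ₁) (by rw [hP₁]; exact hQ₂)
    rw [hP₀, hP₁, hCQ c hc] at hce
    have hQT : Q ≤ T := hce.le.trans ((Subgroup.map_subtype_le _).trans inf_le_left)
    -- so the linear character is trivial on `N`
    set W := lN.ker.map N.subtype with hW
    have hgen : N ≤ W := by
      obtain ⟨i', hi'⟩ := IsPGroup.iff_card.1 hQ.isPGroup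
      have hcopQ : (Nat.card Q).Coprime (Nat.card N) := by
        rw [hi', hi]
        exact Nat.Coprime.pow _ _ ((Nat.coprime_primes Fact.out Fact.out).2 hpq.symm)
      conv_lhs => rw [← Coprime.eq_commutator_sup_centralizer hQnN hcopQ
        (Or.inl (Coprime.isSolvable_of_isPGroup hQ.isPGroup))]
      refine sup_le (Subgroup.commutator_le.2 fun x hx k hk => ?_) fun x hx => ?_
      · have hk' : k * x⁻¹ * k⁻¹ ∈ N := hNn.conj_mem _ (inv_mem hx) k
        refine ⟨⟨⁅x, k⁆, by
          rw [commutatorElement_def, show x * k * x⁻¹ * k⁻¹ = x * (k * x⁻¹ * k⁻¹) by group]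
          exact mul_mem hx hk'⟩, ?_, rfl⟩
        have h2 : (lN ⟨_, hk'⟩ : ℂ) = (lN (⟨x, hx⟩ : N)⁻¹ : ℂ) :=
          Chars.Induced.mem_inertia_iff_forall.1 (hQT hk) (⟨x, hx⟩ : N)⁻¹ ⟨_, hk'⟩ rfl
        rw [SetLike.mem_coe, MonoidHom.mem_ker,
          show (⟨⁅x, k⁆, _⟩ : N) = (⟨x, hx⟩ : N) * ⟨_, hk'⟩ from Subtype.ext (by
            show x * k * x⁻¹ * k⁻¹ = x * (k * x⁻¹ * k⁻¹)
            group),
          map_mul, Units.ext h2, ← map_mul, mul_inv_cancel, map_one]
      · refine ⟨⟨x, hx.1⟩, ?_, rfl⟩
        exact hlZ _ (show (⟨x, hNP hx.1⟩ : P) ∈ Z from Subgroup.mem_sup_left hx)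
    obtain ⟨w, hw, hwe⟩ := hgen hn₀
    refine hln₀ ?_
    rw [show n₀ = Subgroup.inclusion hNP w from Subtype.ext hwe.symm]
    exact hw

end CfsgLib.PQDegrees
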